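import Cfsg.Agent.Lib.SimsThree.Quot

/-!
A subgroup whose quotient by its `2`-core is dihedral and an element normalizing its Sylow 2-subgroup.
-/

set_option autoImplicit false
set_option linter.style.haveILetI false
set_option linter.unusedSectionVars false

namespace Cfsg.Agent.Lib.SimsThree

open Subgroup
open Cfsg.Agent.Lib.LocalChar (cj cj_cj cj_one card_cj mem_cj conj_mem_cj)

variable {G : Type*} [Group G] [Finite G]

lemma cj_sup (g : G) (A B : Subgroup G) : cj g (A ⊔ B) = cj g A ⊔ cj g B := Subgroup.map_sup A B _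

lemma isUnit_two {n : ℕ} (hn : Odd n) : IsUnit (2 : ZMod n) := by
  have := (ZMod.unitOfCoprime 2 (Nat.coprime_two_left.2 hn)).isUnit
  simpa using this

/-- The generators of Sims for a group that is dihedral modulo its `2`-core. -/
theorem exists_setting {H X : Subgroup G} {y : G} (hp : IsPGroup 2 ↥X) (hXH : X ≤ H)
    (hodd : ¬ 2 ∣ X.relIndex H) {n : ℕ} (hn : 2 ≤ n) (e : ↥H ⧸ Cfsg.pCore 2 ↥H ≃* DihedralGroup n)
    (hy : cj y X = X) (nobot : ∀ K : Subgroup G, K ≤ X → H ≤ normalizer (K : Set G) →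
      cj y⁻¹ H ≤ normalizer (K : Set G) → K = ⊥) :
    Odd n ∧ ∃ (h : G) (k : ℕ) (z : ℤ → G) (m : ℕ), Gens (cj y⁻¹ H) H X h k z ∧ Dist z m ∧ m ≤ k ∧
      Nat.card ↥H = 2 ^ k * n ∧ Nat.card ↥X = 2 ^ k ∧
      2 * Nat.card ↥(Cfsg.pCore 2 ↥H) = 2 ^ k := by
  classical
  haveI : Fact (Nat.Prime 2) := ⟨Nat.prime_two⟩
  haveI : NeZero n := ⟨by omega⟩
  set Q := Cfsg.pCore 2 ↥H with hQ
  haveI : Q.Normal := Cfsg.pCore_normal 2 ↥H
  have hQp : IsPGroup 2 ↥Q := Cfsg.Agent.Lib.Components.pCore_isPGroup 2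
  let π : ↥H →* DihedralGroup n := e.toMonoidHom.comp (QuotientGroup.mk' Q)
  have hπs : Function.Surjective π := e.surjective.comp (QuotientGroup.mk'_surjective Q)
  have hker : π.ker = Q := by
    ext x
    rw [MonoidHom.mem_ker]
    exact (map_eq_one_iff e e.injective).trans (QuotientGroup.eq_one_iff x)
  have hcardH : Nat.card ↥H = Nat.card ↥Q * (2 * n) := by
    rw [Q.card_eq_card_quotient_mul_card_subgroup, Nat.card_congr e.toEquiv, DihedralGroup.nat_card, mul_comm]
  have hn' : Odd n := by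
    rcases Nat.even_or_odd n with ⟨j, hj⟩ | h
    · exfalso
      let c : DihedralGroup n := DihedralGroup.r (j : ZMod n)
      have hjj : (j : ZMod n) + (j : ZMod n) = 0 := by
        rw [← Nat.cast_add, ← hj]; exact ZMod.natCast_self n
      have hneg : -(j : ZMod n) = (j : ZMod n) := neg_eq_of_add_eq_zero_left hjj
      have hc1 : c ≠ 1 := fun e1 => by
        have e2 : (j : ZMod n) = 0 := by
          rw [DihedralGroup.one_def] at e1
          exact DihedralGroup.r.inj e1
        rw [ZMod.natCast_eq_zero_iff] at e2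
        have := Nat.le_of_dvd (by omega) e2
        omega
      have hcen : c ∈ center (DihedralGroup n) := mem_center_iff.2 fun x => by
        rcases x with i | i
        · rw [DihedralGroup.r_mul_r, DihedralGroup.r_mul_r, add_comm]
        · rw [DihedralGroup.sr_mul_r, DihedralGroup.r_mul_sr, sub_eq_add_neg, hneg]
      let Z := (zpowers c).comap π
      haveI : (zpowers c).Normal := ⟨fun x hx g => by
        rwa [mem_center_iff.1 ((zpowers_le.2 hcen) hx) g, mul_inv_cancel_right]⟩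
      haveI : Z.Normal := inferInstance
      have hc2 : c ^ 2 = 1 := by
        rw [pow_two, DihedralGroup.r_mul_r, hjj, DihedralGroup.one_def]
      have hZp : IsPGroup 2 ↥Z := by
        intro x
        obtain ⟨i, hi⟩ := x.2
        have h2 : (π x.1) ^ 2 = 1 := by
          rw [← show c ^ i = π x.1 from hi, ← zpow_natCast, ← zpow_mul, mul_comm, zpow_mul, zpow_natCast,
            hc2, one_zpow]
        have h3 : x.1 ^ 2 ∈ Q := by rw [← hker, MonoidHom.mem_ker, map_pow, h2]
        obtain ⟨k, hk⟩ := hQp ⟨_, h3⟩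
        refine ⟨k + 1, Subtype.ext ?_⟩
        rw [pow_succ', SubgroupClass.coe_pow, pow_mul]
        simpa using congrArg Subtype.val hk
      have hZQ : Z ≤ Q := Cfsg.Agent.Lib.Components.le_pCore hZp
      obtain ⟨x, hx⟩ := hπs c
      have h4 : x ∈ Q := hZQ (show π x ∈ zpowers c by rw [hx]; exact mem_zpowers c)
      rw [← hker, MonoidHom.mem_ker, hx] at h4
      exact hc1 h4
    · exact h
  refine ⟨hn', ?_⟩
  set X' := X.subgroupOf H with hX'
  have hQX : Q ≤ X' := by
    let P : Sylow 2 ↥H := IsPGroup.toSylow (hp.comap_subtype : IsPGroup 2 ↥X') hodd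
    have h1 : IsPGroup 2 ↥(Q ⊔ X') := (Cfsg.Agent.Lib.Components.isCoreClass_pGroup 2).sup Q X'
      (by rw [normalizer_eq_top]; exact le_top) hQp hp.comap_subtype
    have h2 : Q ⊔ X' = X' := P.3 h1 le_sup_right
    exact h2 ▸ le_sup_left
  have hX'c : Nat.card ↥X' = Nat.card ↥X := Nat.card_congr (subgroupOfEquivOfLe hXH).toEquiv
  have hcX : Nat.card ↥X = 2 * Nat.card ↥Q := by
    obtain ⟨i, hi⟩ := IsPGroup.iff_card.1 hQp
    obtain ⟨j, hj⟩ := IsPGroup.iff_card.1 hp
    have h1 := X'.card_mul_index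
    rw [hX'c, hj, hcardH, hi, ← mul_assoc, ← pow_succ] at h1
    have hco : ∀ a, (2 ^ a).Coprime n := fun a => Nat.Coprime.pow_left a (Nat.coprime_two_left.2 hn')
    have hco' : ∀ a, (2 ^ a).Coprime X'.index := fun a =>
      Nat.Coprime.pow_left a ((Nat.Prime.coprime_iff_not_dvd Nat.prime_two).2 hodd)
    have h2 : 2 ^ j ∣ 2 ^ (i + 1) := (hco j).dvd_of_dvd_mul_right (Dvd.intro _ h1)
    have h3 : 2 ^ (i + 1) ∣ 2 ^ j := (hco' (i + 1)).dvd_of_dvd_mul_right (Dvd.intro _ h1.symm)
    rw [hj, hi, Nat.dvd_antisymm h2 h3, pow_succ, mul_comm]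
  have himg : Nat.card ↥(X'.map π) = 2 := by
    rw [← relIndex_ker, hker]
    have := card_mul_relIndex' hQX
    rw [hX'c, hcX, mul_comm 2] at this
    exact mul_left_cancel₀ Nat.card_pos.ne' this
  obtain ⟨t, ht, ht1⟩ := (bot_or_exists_ne_one (X'.map π)).resolve_left fun e1 => by
    rw [e1, card_bot] at himg; omega
  have ht2 : t * t = 1 := by
    have := orderOf_dvd_natCard _ ht
    rw [himg] at this
    rw [← pow_two]
    exact orderOf_dvd_iff_pow_eq_one.1 this
  have hu2 : IsUnit (2 : ZMod n) := isUnit_two hn'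
  obtain ⟨i, rfl⟩ : ∃ i, t = DihedralGroup.sr i := by
    rcases t with i | i
    · exfalso
      rw [DihedralGroup.r_mul_r, DihedralGroup.one_def] at ht2
      have := DihedralGroup.r.inj ht2
      rw [← two_mul, hu2.mul_right_eq_zero] at this
      exact ht1 (by rw [this, DihedralGroup.one_def])
    · exact ⟨i, rfl⟩
  obtain ⟨x0, hx0, hx0e⟩ := ht
  obtain ⟨a, ha⟩ := hπs (DihedralGroup.r 1)
  have hconj : π (a * x0 * a⁻¹) = DihedralGroup.sr (i - 2) := by
    rw [map_mul, map_mul, map_inv, ha, hx0e, DihedralGroup.r_mul_sr, DihedralGroup.inv_r,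
      DihedralGroup.sr_mul_r]
    congr 1; ring
  set Y := cj (a : G) X with hY
  have hYH : Y ≤ H := by
    rintro _ ⟨x, hx, rfl⟩
    exact mul_mem (mul_mem a.2 (hXH hx)) (inv_mem a.2)
  have hxY : ((a * x0 * a⁻¹ : ↥H) : G) ∈ Y := conj_mem_cj hx0
  have hnot : ¬ Y ≤ X := fun hle => by
    have h1 : DihedralGroup.sr (i - 2) ∈ X'.map π := ⟨_, hle hxY, hconj⟩
    have h2 : DihedralGroup.sr i ∈ X'.map π := ⟨x0, hx0, hx0e⟩
    obtain ⟨w, -, hw⟩ := (Nat.card_eq_two_iff' (1 : ↥(X'.map π))).1 himg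
    have h3 := congrArg Subtype.val ((hw ⟨_, h1⟩ fun e1 => by
      exact absurd (congrArg Subtype.val e1) (by rw [OneMemClass.coe_one, DihedralGroup.one_def]; exact fun e2 => by cases e2)).trans
      (hw ⟨_, h2⟩ fun e1 => by
      exact absurd (congrArg Subtype.val e1) (by rw [OneMemClass.coe_one, DihedralGroup.one_def]; exact fun e2 => by cases e2)).symm)
    have h4 := DihedralGroup.sr.inj h3
    have h5 : (2 : ZMod n) = 0 := by
      calc (2 : ZMod n) = i - (i - 2) := by ring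
        _ = 0 := by rw [h4, sub_self]
    rw [h5] at hu2
    haveI : Fact (1 < n) := ⟨by omega⟩
    exact not_isUnit_zero hu2
  have hidx : X.relIndex Y = 2 := by
    have hQY : Q.map H.subtype ≤ X ⊓ Y := by
      rintro _ ⟨q, hq, rfl⟩
      refine ⟨hQX hq, mem_cj.2 ?_⟩
      have h1 : a⁻¹ * q * a⁻¹⁻¹ ∈ Q := (inferInstance : Q.Normal).conj_mem q hq a⁻¹
      rw [inv_inv] at h1
      exact hQX h1
    have h1 : (X ⊓ Y).relIndex Y ∣ (Q.map H.subtype).relIndex Y := relIndex_dvd_of_le_left _ hQY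
    have h2 : (Q.map H.subtype).relIndex Y = 2 := by
      have := card_mul_relIndex' (hQY.trans inf_le_right)
      rw [card_map_of_injective H.subtype_injective, hY, card_cj, hcX, mul_comm 2] at this
      exact mul_left_cancel₀ Nat.card_pos.ne' this
    rw [h2, inf_relIndex_right] at h1
    rcases (Nat.dvd_prime Nat.prime_two).1 h1 with h3 | h3
    · exact absurd (relIndex_eq_one.1 h3) hnot
    · exact h3
  have hgen : X ⊔ Y = H := by
    refine le_antisymm (sup_le hXH hYH) fun g hg => ?_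
    set S := (X ⊔ Y).subgroupOf H
    have hQS : π.ker ≤ S := by
      rw [hker]
      exact fun q hq => mem_subgroupOf.2 (mem_sup_left (hQX hq))
    have h2 : DihedralGroup.sr i ∈ S.map π := ⟨x0, (le_sup_left : X ≤ X ⊔ Y) hx0, hx0e⟩
    have h1 : DihedralGroup.sr (i - 2) ∈ S.map π := ⟨_, mem_sup_right hxY, hconj⟩
    have h3 : DihedralGroup.r (-2 : ZMod n) ∈ S.map π := by
      have := mul_mem h2 h1
      rwa [DihedralGroup.sr_mul_sr, show i - 2 - i = -2 by ring] at this
    obtain ⟨w, hw⟩ := hu2.neg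
    have hr : ∀ k : ZMod n, DihedralGroup.r k ∈ S.map π := fun k => by
      have := pow_mem h3 (k * ↑w⁻¹).val
      rw [DihedralGroup.r_pow, ZMod.natCast_val, ZMod.cast_id', id, ← hw, mul_comm] at this
      rwa [mul_assoc, Units.inv_mul, mul_one] at this
    have hall : S.map π = ⊤ := by
      rw [eq_top_iff]
      rintro (k | k) -
      · exact hr k
      · have := mul_mem h2 (hr (k - i))
        rwa [DihedralGroup.sr_mul_r, add_sub_cancel] at this
    have h4 : S = ⊤ := by
      rw [← comap_map_eq_self hQS, hall, comap_top]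
    exact (h4.ge (mem_top (⟨g, hg⟩ : ↥H)) : _)
  -- the configuration
  set h := (a : G) * y with hh
  have hX : cj h X = Y := by rw [hh, ← cj_cj, hy]
  have hH' : cj h⁻¹ X ⊔ X = cj y⁻¹ H := by
    have hXy : cj y⁻¹ X = X := by conv_lhs => rw [← hy, cj_cj, inv_mul_cancel, cj_one]
    have haH : cj (a : G)⁻¹ H = H := Cfsg.Agent.Lib.LocalChar.cj_eq_of_mem_nz (le_normalizer (inv_mem a.2))
    rw [hh, mul_inv_rev, ← cj_cj]
    conv_lhs => rw [← hXy, ← cj_sup, hXy]
    congr 1
    refine Eq.trans ?_ haH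
    refine Eq.trans ?_ (congrArg (cj (a : G)⁻¹) hgen)
    rw [cj_sup, hY, cj_cj, inv_mul_cancel, cj_one]
  have d : Data (cj y⁻¹ H) H X h := by
    refine ⟨hp, ?_, by rw [hX]; exact hidx, fun hc => ?_, by rw [hX]; exact hgen, hH', fun K hK h1 h2 =>
      nobot K hK h2 h1⟩
    · rw [← hH']; exact le_sup_right
    · obtain ⟨j, hj⟩ := IsPGroup.iff_card.1 hc
      rw [card_cj] at hj
      have h5 : n ∣ 2 ^ j := hj ▸ hcardH ▸ Dvd.intro_left (Nat.card ↥Q * 2) (mul_assoc _ _ _)
      have := Nat.eq_one_of_dvd_coprimes (Nat.Coprime.pow_left j (Nat.coprime_two_left.2 hn')) h5 dvd_rfl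
      omega
  obtain ⟨k, z, hg⟩ := d.exists_gens
  obtain ⟨m, hm, hmk⟩ := hg.exists_dist
  have h0 := hg.card 0 (by omega)
  rw [Nat.cast_zero, T_zero_zero, Nat.sub_zero] at h0
  exact ⟨h, k, z, m, hg, hm, hmk, by rw [← h0, hcX, hcardH]; ring, h0, by rw [← hcX, h0]⟩

end Cfsg.Agent.Lib.SimsThree
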