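import Cfsg.Agent.Lib.SimsThree.Quot
import Mathlib.GroupTheory.SpecificGroups.KleinFour

/-!
A Sylow four-group containing a normal subgroup of order two.
-/

set_option autoImplicit false
set_option linter.style.haveILetI false

namespace Cfsg.Agent.Lib.SimsThree

open Subgroup

variable {K : Type*} [Group K] [Finite K]

/-- A group with a Sylow four-group containing a normal subgroup of order two is a four-group modulo its odd core. -/
theorem klein_quotient (P : Sylow 2 K) (hP : Nat.card ↥(P : Subgroup K) = 4)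
    (hsq : ∀ x ∈ (P : Subgroup K), x * x = 1) (Q : Subgroup K) [Q.Normal] (hQ : Nat.card ↥Q = 2) :
    Nonempty (K ⧸ Cfsg.oddCore K ≃* Multiplicative (ZMod 2) × Multiplicative (ZMod 2)) := by
  classical
  haveI : Fact (Nat.Prime 2) := ⟨Nat.prime_two⟩
  have hQp : IsPGroup 2 ↥Q := IsPGroup.of_card (n := 1) hQ
  have hQP : Q ≤ (P : Subgroup K) :=
    (Cfsg.Agent.Lib.Hall.le_pCore hQp).trans (Cfsg.Agent.Lib.Hall.pCore_le_sylow P)
  haveI hPc : IsMulCommutative ↥(P : Subgroup K) := IsPGroup.isMulCommutative_of_card_eq_prime_sq (p := 2) hP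
  set C := centralizer ((P : Subgroup K) : Set K) with hC
  have hPC : (P : Subgroup K) ≤ C := le_centralizer (P : Subgroup K)
  have hcen : ∀ q ∈ Q, ∀ a : K, a * q * a⁻¹ = q := by
    intro q hq a
    by_cases hq1 : q = 1
    · simp [hq1]
    have hcj : a * q * a⁻¹ ∈ Q := (inferInstance : Q.Normal).conj_mem q hq a
    obtain ⟨w, -, hw⟩ := (Nat.card_eq_two_iff' (1 : ↥Q)).1 hQ
    exact congrArg Subtype.val ((hw (⟨_, hcj⟩ : ↥Q) fun e => hq1 (by simpa using congrArg Subtype.val e)).trans
      (hw (⟨q, hq⟩ : ↥Q) fun e => hq1 (congrArg Subtype.val e)).symm)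
  have hidx : (Q.subgroupOf (P : Subgroup K)).index = 2 := by
    have := (Q.subgroupOf (P : Subgroup K)).card_mul_index
    rw [Nat.card_congr (subgroupOfEquivOfLe hQP).toEquiv, hQ, hP] at this
    omega
  have hN : normalizer ((P : Subgroup K) : Set K) ≤ C := by
    intro x hx
    have hxx : x ^ 2 ∈ C := by
      refine mem_centralizer_iff.2 fun a ha => ?_
      have hb : x * a * x⁻¹ ∈ (P : Subgroup K) := (mem_normalizer_iff.1 hx a).1 ha
      have hbQ : x * a * x⁻¹ ∈ Q ↔ a ∈ Q := by
        constructor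
        · intro h
          have := (inferInstance : Q.Normal).conj_mem _ h x⁻¹
          simpa [mul_assoc] using this
        · exact fun h => (inferInstance : Q.Normal).conj_mem a h x
      have hq : x * a * x⁻¹ * a⁻¹ ∈ Q := by
        refine (mul_mem_iff_of_index_two hidx (a := ⟨_, hb⟩) (b := ⟨_, inv_mem ha⟩)).2 ?_
        show (x * a * x⁻¹ ∈ Q) ↔ (a⁻¹ ∈ Q)
        rw [inv_mem_iff]; exact hbQ
      have h2 : x * (x * a * x⁻¹) * x⁻¹ = a := by
        conv_lhs => rw [show x * a * x⁻¹ = (x * a * x⁻¹ * a⁻¹) * a by group]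
        rw [show x * (x * a * x⁻¹ * a⁻¹ * a) * x⁻¹ = (x * (x * a * x⁻¹ * a⁻¹) * x⁻¹) * (x * a * x⁻¹) by group,
          hcen _ hq]
        conv_lhs => rw [show x * a * x⁻¹ = (x * a * x⁻¹ * a⁻¹) * a by group]
        rw [show x * a * x⁻¹ * a⁻¹ * a * a⁻¹ = x * a * x⁻¹ * a⁻¹ by group, ← mul_assoc, hsq _ (hQP hq),
          one_mul]
      calc a * x ^ 2 = x * (x * a * x⁻¹) * x⁻¹ * x ^ 2 := by rw [h2]
        _ = x ^ 2 * a := by rw [pow_two]; group
    set N := normalizer ((P : Subgroup K) : Set K) with hN'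
    haveI : ((centralizer ((P : Subgroup K) : Set K)).subgroupOf N).Normal :=
      ⟨fun c hc n => mem_subgroupOf.2 (mem_centralizer_iff.2 fun a ha => by
        have h1 : (n : K)⁻¹ * a * (n : K) ∈ (P : Subgroup K) := (mem_normalizer_iff''.1 n.2 a).1 ha
        have h2 := mem_centralizer_iff.1 (mem_subgroupOf.1 hc) _ h1
        show a * ((n : K) * c * (n : K)⁻¹) = (n : K) * c * (n : K)⁻¹ * a
        calc a * ((n : K) * c * (n : K)⁻¹) = n * ((n : K)⁻¹ * a * n * c) * (n : K)⁻¹ := by group
          _ = n * (c * ((n : K)⁻¹ * a * n)) * (n : K)⁻¹ := by rw [h2]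
          _ = _ := by group)⟩
    have hodd : Odd (C.relIndex N) := by
      rw [← Nat.not_even_iff_odd, even_iff_two_dvd]
      intro h2
      refine P.not_dvd_index (h2.trans ((relIndex_dvd_of_le_left N hPC).trans ?_))
      exact Dvd.intro _ (relIndex_mul_index le_normalizer)
    have hpow : x ^ C.relIndex N ∈ C := by
      exact mem_subgroupOf.1 (pow_index_mem (C.subgroupOf N) (⟨x, hx⟩ : ↥N))
    obtain ⟨j, hj⟩ := hodd
    rw [hj, pow_succ, pow_mul] at hpow
    exact (mul_mem_cancel_left (pow_mem hxx j)).1 hpow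
  let f := MonoidHom.transferSylow P hN
  have hcompl := MonoidHom.ker_transferSylow_isComplement' P hN
  have hRc : Nat.card ↥f.ker = (P : Subgroup K).index := hcompl.index_eq_card.symm
  have hRodd : Odd (Nat.card ↥f.ker) := by
    rw [hRc, ← Nat.not_even_iff_odd, even_iff_two_dvd]
    exact P.not_dvd_index
  have hsurj : Function.Surjective f := by
    rw [← MonoidHom.range_eq_top]
    refine eq_top_of_card_eq _ ?_
    rw [← index_ker]
    exact hcompl.symm.index_eq_card
  have hR : Cfsg.oddCore K = f.ker := by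
    refine oddCore_eq_of hRodd fun M hM hMo x hx => ?_
    rw [MonoidHom.mem_ker, ← orderOf_eq_one_iff]
    exact Nat.eq_one_of_dvd_coprimes (Nat.Coprime.pow_left 2
      (Nat.coprime_two_left.2 (Odd.of_dvd_nat hMo (M.orderOf_dvd_natCard hx))))
      ((orderOf_dvd_natCard (f x)).trans hP.dvd) (orderOf_map_dvd f x)
  haveI : Nontrivial ↥(P : Subgroup K) := Finite.one_lt_card_iff_nontrivial.1 (by omega)
  haveI : IsKleinFour ↥(P : Subgroup K) := ⟨hP, by
    refine (Monoid.exponent_eq_prime_iff Nat.prime_two).2 ?_ |> fun h => h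
    intro x hx
    exact orderOf_eq_prime (by rw [pow_two]; exact Subtype.ext (hsq x x.2)) hx⟩
  haveI : IsKleinFour (Multiplicative (ZMod 2) × Multiplicative (ZMod 2)) := ⟨by simp, by
    rw [Monoid.exponent_prod, Monoid.exponent_multiplicative, ZMod.exponent]; rfl⟩
  obtain ⟨e⟩ := IsKleinFour.nonempty_mulEquiv (G₁ := ↥(P : Subgroup K))
    (G₂ := Multiplicative (ZMod 2) × Multiplicative (ZMod 2))
  exact ⟨((QuotientGroup.quotientMulEquivOfEq hR).trans
    (QuotientGroup.quotientKerEquivOfSurjective f hsurj)).trans e⟩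

end Cfsg.Agent.Lib.SimsThree
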